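import Cfsg.Agent.H834.L16.Calc
import Cfsg.Agent.H955.L16.Stmt

/-!
# S5916: the elimination `ElimN012` (helper834)
-/

set_option autoImplicit false
set_option maxRecDepth 100000
set_option linter.unusedSimpArgs false

namespace Cfsg.Agent.H834.L16

open Cfsg Cfsg.Lie
open Cfsg.Agent.H939.L64 (KK LK brK)
open Cfsg.Agent.H413.L16 (er nr)
open Cfsg.Agent.H939.L16 (Ops iz)
open Cfsg.Agent.H955.L16

/-! ### the vectors -/

/-- the list of `vR` with the variables number `i` -/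
def Rl (i : ℕ) : List (ℕ × ℕ × ℕ) := [(128, i, 1), (127, 3 + i, 1), (131, 3 + i, 1), (136, 6 + i, 1), (163, 6 + i, 1),
  (147, 9 + i, 1), (137, 12 + i, 1), (143, 15 + i, 1), (148, 18 + i, 1)]

/-- the list of `vN` -/
def Nl : List (ℕ × ℕ × ℕ) := [(157, 21, 1), (172, 22, 1), (2, 23, 1), (154, 23, 1), (129, 24, 1), (156, 24, 1), (2, 25, 1),
  (167, 25, 1)]

theorem ev_Rl (nu : ℕ → KK) (i : ℕ) :
    ev nu (Rl i) = vR (nu i) (nu (3 + i)) (nu (6 + i)) (nu (9 + i)) (nu (12 + i)) (nu (15 + i)) (nu (18 + i)) := by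
  unfold ev Rl vR
  simp only [List.map_cons, List.map_nil, List.sum_cons, List.sum_nil, tv, pow_one, smul_add]
  abel

theorem ev_Nl (nu : ℕ → KK) : ev nu Nl = vN (nu 21) (nu 22) (nu 23) (nu 24) (nu 25) := by
  unfold ev Nl vN
  simp only [List.map_cons, List.map_nil, List.sum_cons, List.sum_nil, tv, pow_one, smul_add]
  abel

/-- the eight vectors -/
def S : Bool → Bool → Bool → List (ℕ × ℕ × ℕ)
  | true, true, true => [(75, 0, 2), (74, 3, 2), (75, 3, 2), (100, 3, 2), (101, 3, 2), (106, 3, 2), (107, 3, 2), (90, 6,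
    2), (101, 6, 2), (95, 6, 2), (107, 6, 2), (119, 6, 2), (95, 9, 2), (107, 9, 2), (101, 12, 2), (107, 12, 2), (106,
    15, 2), (107, 15, 2), (107, 18, 2)]
  | true, true, false => [(57, 21, 8), (223, 22, 8), (25, 23, 8), (56, 23, 8), (57, 23, 8), (228, 24, 8), (47, 24, 8),
    (57, 24, 8), (25, 25, 8), (222, 25, 8), (223, 25, 8)]
  | true, false, true => [(151, 1, 4), (140, 4, 4), (185, 4, 4), (178, 7, 4), (4, 7, 4), (179, 10, 4), (188, 13, 4),
    (186, 16, 4), (189, 19, 4)]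
  | true, false, false => [(116, 2, 1), (115, 5, 1), (116, 5, 1), (92, 5, 1), (103, 5, 1), (97, 5, 1), (109, 5, 1), (96,
    8, 1), (97, 8, 1), (108, 8, 1), (109, 8, 1), (77, 8, 1), (108, 11, 1), (109, 11, 1), (97, 14, 1), (109, 14, 1),
    (103, 17, 1), (109, 17, 1), (109, 20, 1)]
  | false, true, true => [(128, 2, 1), (127, 5, 1), (131, 5, 1), (136, 8, 1), (163, 8, 1), (147, 11, 1), (137, 14, 1),
    (143, 17, 1), (148, 20, 1)]
  | false, true, false => [(105, 1, 4), (93, 4, 4), (105, 4, 4), (60, 4, 4), (61, 4, 4), (63, 4, 4), (64, 4, 4), (53, 7,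
    4), (54, 7, 4), (63, 7, 4), (64, 7, 4), (236, 7, 4), (54, 10, 4), (64, 10, 4), (63, 13, 4), (64, 13, 4), (61, 16,
    4), (64, 16, 4), (64, 19, 4)]
  | false, false, true => [(193, 21, 8), (22, 22, 8), (219, 23, 8), (192, 23, 8), (12, 24, 8), (183, 24, 8), (219, 25,
    8), (21, 25, 8)]
  | false, false, false => [(170, 0, 2), (169, 3, 2), (144, 3, 2), (133, 6, 2), (122, 6, 2), (139, 9, 2), (145, 12, 2),
    (149, 15, 2), (150, 18, 2)]

theorem okS : ∀ a b c, ok (S a b c) = true := by decide +kernel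

theorem okT : ∀ a b c, okz (tl (S a b c)) = true := by decide +kernel

theorem okFS : ∀ a b c, ok (Fl (S a b c)) = true := by decide +kernel

theorem okFFS : ∀ a b c, ok (Fl (Fl (S a b c))) = true := by decide +kernel

theorem S_ttt : Tl (Fl (Rl 0)) = S true true true := by decide +kernel
theorem S_ttt' : ok (Rl 0) = true ∧ ok (Fl (Rl 0)) = true ∧ okz (tl (Fl (Rl 0))) = true := by decide +kernel
theorem S_tft : Fl (Fl (Rl 1)) = S true false true := by decide +kernel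
theorem S_tft' : ok (Rl 1) = true ∧ ok (Fl (Rl 1)) = true := by decide +kernel
theorem S_ftt : Rl 2 = S false true true := by decide +kernel
theorem S_fft : Fl (Fl (Fl Nl)) = S false false true := by decide +kernel
theorem S_fft' : ok Nl = true ∧ ok (Fl Nl) = true ∧ ok (Fl (Fl Nl)) = true := by decide +kernel
theorem S_fff : Tl (S true true true) = S false false false := by decide +kernel
theorem S_ftf : Tl (S true false true) = S false true false := by decide +kernel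
theorem S_tff : Tl (S false true true) = S true false false := by decide +kernel
theorem S_ttf : Tl (S false false true) = S true true false := by decide +kernel

/-! ### the coefficients -/

def saL (a d : Bool) (u : ℕ) : List ((ℕ × ℕ) × (ℕ × ℕ)) :=
  (bl u (S a true true) (Fl (S false false d)) ++ bl u (S a true false) (Fl (S false true d))) ++
    (bl u (S a false true) (Fl (S true false d)) ++ bl u (S a false false) (Fl (S true true d)))

def sbL (b d : Bool) (u : ℕ) : List ((ℕ × ℕ) × (ℕ × ℕ)) :=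
  (bl u (S true b true) (Fl (Fl (S false d true))) ++ bl u (S true b false) (Fl (Fl (S true d true)))) ++
    (bl u (S false b true) (Fl (Fl (S false d false))) ++ bl u (S false b false) (Fl (Fl (S true d false))))

section eqs

variable {Fp : LK → LK} {ta : LK →ₗ[KK] LK} {nu : ℕ → KK} {s : Bool → Bool → Bool → LK}

theorem ss_eq (hs : ∀ a b c, s a b c = ev nu (S a b c)) (hSS : SS3 s) (a b c a' b' c' : Bool) {u : ℕ} (hu : u < 240)
    {q : List ((ℕ × ℕ) × (ℕ × ℕ))} (hq : nrm (bl u (S a b c) (S a' b' c')) = q) : qv nu q = 0 := by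
  have hu' : u < chevE8.nroots := by rw [nr]; exact hu
  have h1 := congrFun (hSS a b c a' b' c') (Sum.inr ⟨u, hu'⟩)
  rw [hs, hs, cf_br nu hu' (okS _ _ _) (okS _ _ _)] at h1
  rw [← hq, qv_nrm]
  exact h1

theorem sa_eq (h : Ops Fp ta) (hs : ∀ a b c, s a b c = ev nu (S a b c)) (hSA : SA Fp s) (a d : Bool) {u : ℕ} (hu : u < 240)
    {q : List ((ℕ × ℕ) × (ℕ × ℕ))} (hq : nrm (saL a d u) = q) : qv nu q = 0 := by
  have hu' : u < chevE8.nroots := by rw [nr]; exact hu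
  have h1 := congrFun (hSA a d) (Sum.inr ⟨u, hu'⟩)
  simp only [Fintype.sum_bool, hs, Bool.not_true, Bool.not_false, ev_F h nu (okS _ _ _), Pi.add_apply,
    cf_br nu hu' (okS _ _ _) (okFS _ _ _)] at h1
  rw [← hq, qv_nrm]
  unfold saL
  rw [qv_append, qv_append, qv_append]
  exact h1

theorem sb_eq (h : Ops Fp ta) (hs : ∀ a b c, s a b c = ev nu (S a b c)) (hSB : SB Fp s) (b d : Bool) {u : ℕ} (hu : u < 240)
    {q : List ((ℕ × ℕ) × (ℕ × ℕ))} (hq : nrm (sbL b d u) = q) : qv nu q = 0 := by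
  have hu' : u < chevE8.nroots := by rw [nr]; exact hu
  have h1 := congrFun (hSB b d) (Sum.inr ⟨u, hu'⟩)
  simp only [Fintype.sum_bool, hs, Bool.not_true, Bool.not_false, ev_F h nu (okS _ _ _), ev_F h nu (okFS _ _ _),
    Pi.add_apply, cf_br nu hu' (okS _ _ _) (okFFS _ _ _)] at h1
  rw [← hq, qv_nrm]
  unfold sbL
  rw [qv_append, qv_append, qv_append]
  exact h1

end eqs

theorem ss_pmpmmp_78 : nrm (bl 78 (S true false true) (S false false true)) = [((7, 4), (25, 8))] := by decide +kernel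
theorem ss_pppmpm_52 : nrm (bl 52 (S true true true) (S false true false)) = [((6, 2), (7, 4))] := by decide +kernel
theorem ss_pmpppm_85 : nrm (bl 85 (S true false true) (S true true false)) = [((7, 4), (23, 8)), ((7, 4), (25, 8))] :=
    by decide +kernel
theorem ss_mmmpmm_137 : nrm (bl 137 (S false false false) (S true false false)) = [((5, 1), (9, 2))] :=
    by decide +kernel
theorem ss_pppmpp_92 : nrm (bl 92 (S true true true) (S false true true)) = [((5, 1), (6, 2))] := by decide +kernel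
theorem ss_mmmmpp_156 : nrm (bl 156 (S false false false) (S false true true)) = [((3, 2), (14, 1)), ((5, 1), (15,
    2))] := by decide +kernel
theorem ss_mmmpmm_143 : nrm (bl 143 (S false false false) (S true false false)) = [((2, 1), (3, 2)), ((3, 2), (5, 1)),
    ((5, 1), (12, 2))] := by decide +kernel
theorem ss_mmmmpp_157 : nrm (bl 157 (S false false false) (S false true true)) = [((6, 2), (20, 1)), ((9, 2), (17,
    1)), ((12, 2), (14, 1)), ((5, 1), (18, 2))] := by decide +kernel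
theorem ss_mmmmmp_31 : nrm (bl 31 (S false false false) (S false false true)) = [((6, 2), (22, 8))] :=
    by decide +kernel
theorem ss_pppmmp_168 : nrm (bl 168 (S true true true) (S false false true)) = [((6, 2), (23, 8))] :=
    by decide +kernel
theorem ss_ppppmm_68 : nrm (bl 68 (S true true true) (S true false false)) = [((6, 2), (8, 1))] := by decide +kernel
theorem ss_pppppm_199 : nrm (bl 199 (S true true true) (S true true false)) = [((6, 2), (25, 8))] := by decide +kernel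
theorem ss_mmmmpp_154 : nrm (bl 154 (S false false false) (S false true true)) = [((6, 2), (11, 1)), ((8, 1), (12,
    2))] := by decide +kernel
theorem ss_mppmmp_212 : nrm (bl 212 (S false true true) (S false false true)) = [((17, 1), (21, 8)), ((20, 1), (24,
    8))] := by decide +kernel
theorem ss_mmmmpp_184 : nrm (bl 184 (S false false false) (S false true true)) = [((0, 2), (8, 1)), ((3, 2), (14, 1))]
    := by decide +kernel
theorem ss_mppmmp_199 : nrm (bl 199 (S false true true) (S false false true)) = [((8, 1), (24, 8))] :=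
    by decide +kernel
theorem sa_pp_81 : nrm (saL true true 81) = [((4, 4), (4, 8))] := by decide +kernel
theorem sa_pm_120 : nrm (saL true false 120) = [((3, 2), (3, 4)), ((4, 4), (5, 2))] := by decide +kernel
theorem sa_mm_204 : nrm (saL false false 204) = [((6, 4), (11, 1)), ((3, 4), (17, 1)), ((7, 4), (7, 8)), ((5, 2), (23,
    8)), ((5, 2), (25, 8)), ((3, 2), (24, 16))] := by decide +kernel
theorem sa_pp_84 : nrm (saL true true 84) = [((6, 2), (24, 16)), ((1, 8), (7, 4)), ((4, 8), (13, 4)), ((0, 4), (5,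
    1)), ((3, 4), (17, 1))] := by decide +kernel
theorem sa_pp_66 : nrm (saL true true 66) = [((8, 2), (23, 8))] := by decide +kernel
theorem sa_mm_195 : nrm (saL false false 195) = [((5, 1), (15, 4)), ((8, 1), (9, 4)), ((4, 4), (4, 8)), ((4, 8), (7,
    4)), ((8, 2), (23, 8)), ((8, 2), (25, 8))] := by decide +kernel
theorem sa_mp_95 : nrm (saL false true 95) = [((8, 1), (21, 16)), ((8, 1), (25, 16)), ((14, 1), (23, 16)), ((4, 4),
    (8, 2)), ((4, 8), (22, 8)), ((16, 8), (25, 8)), ((3, 4), (6, 2))] := by decide +kernel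
theorem sa_pm_165 : nrm (saL true false 165) = [((6, 2), (12, 4)), ((6, 2), (6, 4)), ((6, 4), (9, 2)), ((7, 4), (8,
    2)), ((7, 4), (11, 2)), ((8, 2), (13, 4)), ((5, 1), (25, 16))] := by decide +kernel
theorem sa_mp_107 : nrm (saL false true 107) = [((8, 1), (22, 16)), ((11, 1), (21, 16)), ((20, 1), (23, 16)), ((1, 4),
    (8, 2)), ((4, 4), (8, 2)), ((2, 2), (4, 4)), ((4, 4), (5, 2)), ((5, 2), (7, 4)), ((5, 2), (10, 4)), ((5, 2), (13,
    4)), ((2, 2), (16, 4)), ((5, 2), (16, 4)), ((5, 2), (19, 4)), ((7, 8), (21, 8)), ((13, 8), (22, 8)), ((19, 8),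
    (25, 8)), ((0, 2), (3, 4)), ((0, 2), (15, 4)), ((3, 2), (3, 4)), ((3, 2), (6, 4)), ((3, 2), (9, 4)), ((3, 2), (12,
    4)), ((3, 2), (15, 4)), ((3, 2), (18, 4)), ((0, 4), (6, 2)), ((3, 4), (6, 2))] := by decide +kernel
theorem sb_pm_216 : nrm (sbL true false 216) = [((6, 2), (24, 32)), ((5, 1), (12, 8)), ((3, 8), (17, 1))] :=
    by decide +kernel
theorem sb_pm_213 : nrm (sbL true false 213) = [((3, 2), (23, 32)), ((3, 2), (25, 32)), ((16, 16), (25, 8)), ((2, 1),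
    (6, 8)), ((5, 1), (12, 8))] := by decide +kernel
theorem sb_pm_220 : nrm (sbL true false 220) = [((4, 16), (25, 8)), ((8, 1), (9, 8)), ((6, 8), (14, 1)), ((4, 4), (8,
    4)), ((5, 4), (7, 4))] := by decide +kernel
theorem sb_pm_13 : nrm (sbL true false 13) = [((3, 2), (23, 32)), ((4, 4), (11, 4)), ((7, 4), (17, 4)), ((5, 4), (10,
    4)), ((8, 4), (16, 4))] := by decide +kernel
theorem sb_mm_95 : nrm (sbL false false 95) = [((16, 4), (23, 32)), ((2, 1), (7, 16)), ((5, 1), (7, 16)), ((1, 16),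
    (8, 1)), ((3, 8), (22, 8)), ((15, 8), (25, 8)), ((5, 4), (6, 2))] := by decide +kernel

/-- the value of the variables -/
noncomputable def nuv (k o1 o3 r1 r2 r3 r0 : ℕ → KK) (K1 K2 A A2 B : KK) (n : ℕ) : KK :=
  [k 0, k 1, k 2, o1 0, o1 1, o1 2, o3 0, o3 1, o3 2, r1 0, r1 1, r1 2, r2 0, r2 1, r2 2, r3 0, r3 1, r3 2, r0 0, r0 1, r0 2,
    K1, K2, A, A2, B].getD n 0

theorem iz_zero : iz 0 = 0 := by
  unfold iz
  rw [xl_zero, xl_zero, xl_zero, xl_zero]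

theorem vR_zero : vR 0 0 0 0 0 0 0 = 0 := by
  unfold vR
  simp only [zero_smul, add_zero]

theorem vN_zero : vN 0 0 0 0 0 = 0 := by
  unfold vN
  simp only [zero_smul, add_zero]

/-- **the elimination of type N, `(0,1,2)`** -/
theorem elimN012 {Fp : LK → LK} {ta : LK →ₗ[KK] LK} (h : Ops Fp ta) : ElimN012 Fp ta := by
  intro s k o1 o3 r1 r2 r3 r0 K1 K2 A A2 B _ _ e1 e2 e3 e4 hne hT hSS hSA hSB
  have hF0 := Fp_zero h
  -- the vectors
  have hs : ∀ a b c, s a b c = ev (nuv k o1 o3 r1 r2 r3 r0 K1 K2 A A2 B) (S a b c) := by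
    have f1 : s true true true = ev (nuv k o1 o3 r1 r2 r3 r0 K1 K2 A A2 B) (S true true true) := by
      obtain ⟨o1', o2', o3'⟩ := S_ttt'
      rw [e1, ← S_ttt, ← ev_T h _ o2' o3', ← ev_F h _ o1', ev_Rl]
      rfl
    have f2 : s true false true = ev (nuv k o1 o3 r1 r2 r3 r0 K1 K2 A A2 B) (S true false true) := by
      obtain ⟨o1', o2'⟩ := S_tft'
      rw [e2, ← S_tft, ← ev_F h _ o2', ← ev_F h _ o1', ev_Rl]
      rfl
    have f3 : s false true true = ev (nuv k o1 o3 r1 r2 r3 r0 K1 K2 A A2 B) (S false true true) := by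
      rw [e3, ← S_ftt, ev_Rl]
      rfl
    have f4 : s false false true = ev (nuv k o1 o3 r1 r2 r3 r0 K1 K2 A A2 B) (S false false true) := by
      obtain ⟨o1', o2', o3'⟩ := S_fft'
      rw [e4, ← S_fft, ← ev_F h _ o3', ← ev_F h _ o2', ← ev_F h _ o1', ev_Nl]
      rfl
    have f5 : s false false false = ev (nuv k o1 o3 r1 r2 r3 r0 K1 K2 A A2 B) (S false false false) := by
      rw [← S_fff, ← ev_T h _ (okS _ _ _) (okT _ _ _), ← f1]
      exact hT true true true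
    have f6 : s false true false = ev (nuv k o1 o3 r1 r2 r3 r0 K1 K2 A A2 B) (S false true false) := by
      rw [← S_ftf, ← ev_T h _ (okS _ _ _) (okT _ _ _), ← f2]
      exact hT true false true
    have f7 : s true false false = ev (nuv k o1 o3 r1 r2 r3 r0 K1 K2 A A2 B) (S true false false) := by
      rw [← S_tff, ← ev_T h _ (okS _ _ _) (okT _ _ _), ← f3]
      exact hT false true true
    have f8 : s true true false = ev (nuv k o1 o3 r1 r2 r3 r0 K1 K2 A A2 B) (S true true false) := by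
      rw [← S_ttf, ← ev_T h _ (okS _ _ _) (okT _ _ _), ← f4]
      exact hT false false true
    intro a b c
    cases a <;> cases b <;> cases c
    · exact f5
    · exact f4
    · exact f6
    · exact f3
    · exact f7
    · exact f2
    · exact f8
    · exact f1
  -- the equations
  have Ess_pmpmmp_78 : (o3 1) ^ 4 * B ^ 8 + 0 = 0 := ss_eq hs hSS true false true false false true (by decide)
      ss_pmpmmp_78
  have Ess_pppmpm_52 : (o3 0) ^ 2 * (o3 1) ^ 4 + 0 = 0 := ss_eq hs hSS true true true false true false (by decide)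
      ss_pppmpm_52
  have Ess_pmpppm_85 : (o3 1) ^ 4 * A ^ 8 + ((o3 1) ^ 4 * B ^ 8 + 0) = 0 := ss_eq hs hSS true false true true true false
      (by decide) ss_pmpppm_85
  have Ess_mmmpmm_137 : (o1 2) ^ 1 * (r1 0) ^ 2 + 0 = 0 := ss_eq hs hSS false false false true false false (by decide)
      ss_mmmpmm_137
  have Ess_pppmpp_92 : (o1 2) ^ 1 * (o3 0) ^ 2 + 0 = 0 := ss_eq hs hSS true true true false true true (by decide)
      ss_pppmpp_92
  have Ess_mmmmpp_156 : (o1 0) ^ 2 * (r2 2) ^ 1 + ((o1 2) ^ 1 * (r3 0) ^ 2 + 0) = 0 := ss_eq hs hSS false false false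
      false true true (by decide) ss_mmmmpp_156
  have Ess_mmmpmm_143 : (k 2) ^ 1 * (o1 0) ^ 2 + ((o1 0) ^ 2 * (o1 2) ^ 1 + ((o1 2) ^ 1 * (r2 0) ^ 2 + 0)) = 0 := ss_eq
      hs hSS false false false true false false (by decide) ss_mmmpmm_143
  have Ess_mmmmpp_157 : (o3 0) ^ 2 * (r0 2) ^ 1 + ((r1 0) ^ 2 * (r3 2) ^ 1 + ((r2 0) ^ 2 * (r2 2) ^ 1 + ((o1 2) ^ 1 *
      (r0 0) ^ 2 + 0))) = 0 := ss_eq hs hSS false false false false true true (by decide) ss_mmmmpp_157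
  have Ess_mmmmmp_31 : (o3 0) ^ 2 * K2 ^ 8 + 0 = 0 := ss_eq hs hSS false false false false false true (by decide)
      ss_mmmmmp_31
  have Ess_pppmmp_168 : (o3 0) ^ 2 * A ^ 8 + 0 = 0 := ss_eq hs hSS true true true false false true (by decide)
      ss_pppmmp_168
  have Ess_ppppmm_68 : (o3 0) ^ 2 * (o3 2) ^ 1 + 0 = 0 := ss_eq hs hSS true true true true false false (by decide)
      ss_ppppmm_68
  have Ess_pppppm_199 : (o3 0) ^ 2 * B ^ 8 + 0 = 0 := ss_eq hs hSS true true true true true false (by decide)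
      ss_pppppm_199
  have Ess_mmmmpp_154 : (o3 0) ^ 2 * (r1 2) ^ 1 + ((o3 2) ^ 1 * (r2 0) ^ 2 + 0) = 0 := ss_eq hs hSS false false false
      false true true (by decide) ss_mmmmpp_154
  have Ess_mppmmp_212 : (r3 2) ^ 1 * K1 ^ 8 + ((r0 2) ^ 1 * A2 ^ 8 + 0) = 0 := ss_eq hs hSS false true true false false
      true (by decide) ss_mppmmp_212
  have Ess_mmmmpp_184 : (k 0) ^ 2 * (o3 2) ^ 1 + ((o1 0) ^ 2 * (r2 2) ^ 1 + 0) = 0 := ss_eq hs hSS false false false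
      false true true (by decide) ss_mmmmpp_184
  have Ess_mppmmp_199 : (o3 2) ^ 1 * A2 ^ 8 + 0 = 0 := ss_eq hs hSS false true true false false true (by decide)
      ss_mppmmp_199
  have Esa_pp_81 : (o1 1) ^ 4 * (o1 1) ^ 8 + 0 = 0 := sa_eq h hs hSA true true (by decide) sa_pp_81
  have Esa_pm_120 : (o1 0) ^ 2 * (o1 0) ^ 4 + ((o1 1) ^ 4 * (o1 2) ^ 2 + 0) = 0 := sa_eq h hs hSA true false (by decide)
      sa_pm_120
  have Esa_mm_204 : (o3 0) ^ 4 * (r1 2) ^ 1 + ((o1 0) ^ 4 * (r3 2) ^ 1 + ((o3 1) ^ 4 * (o3 1) ^ 8 + ((o1 2) ^ 2 * A ^ 8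
      + ((o1 2) ^ 2 * B ^ 8 + ((o1 0) ^ 2 * A2 ^ 16 + 0))))) = 0 := sa_eq h hs hSA false false (by decide) sa_mm_204
  have Esa_pp_84 : (o3 0) ^ 2 * A2 ^ 16 + ((k 1) ^ 8 * (o3 1) ^ 4 + ((o1 1) ^ 8 * (r2 1) ^ 4 + ((k 0) ^ 4 * (o1 2) ^ 1 +
      ((o1 0) ^ 4 * (r3 2) ^ 1 + 0)))) = 0 := sa_eq h hs hSA true true (by decide) sa_pp_84
  have Esa_pp_66 : (o3 2) ^ 2 * A ^ 8 + 0 = 0 := sa_eq h hs hSA true true (by decide) sa_pp_66
  have Esa_mm_195 : (o1 2) ^ 1 * (r3 0) ^ 4 + ((o3 2) ^ 1 * (r1 0) ^ 4 + ((o1 1) ^ 4 * (o1 1) ^ 8 + ((o1 1) ^ 8 * (o3 1)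
      ^ 4 + ((o3 2) ^ 2 * A ^ 8 + ((o3 2) ^ 2 * B ^ 8 + 0))))) = 0 := sa_eq h hs hSA false false (by decide) sa_mm_195
  have Esa_mp_95 : (o3 2) ^ 1 * K1 ^ 16 + ((o3 2) ^ 1 * B ^ 16 + ((r2 2) ^ 1 * A ^ 16 + ((o1 1) ^ 4 * (o3 2) ^ 2 + ((o1
      1) ^ 8 * K2 ^ 8 + ((r3 1) ^ 8 * B ^ 8 + ((o1 0) ^ 4 * (o3 0) ^ 2 + 0)))))) = 0 := sa_eq h hs hSA false true (by
      decide) sa_mp_95
  have Esa_pm_165 : (o3 0) ^ 2 * (r2 0) ^ 4 + ((o3 0) ^ 2 * (o3 0) ^ 4 + ((o3 0) ^ 4 * (r1 0) ^ 2 + ((o3 1) ^ 4 * (o3 2)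
      ^ 2 + ((o3 1) ^ 4 * (r1 2) ^ 2 + ((o3 2) ^ 2 * (r2 1) ^ 4 + ((o1 2) ^ 1 * B ^ 16 + 0)))))) = 0 := sa_eq h hs hSA
      true false (by decide) sa_pm_165
  have Esa_mp_107 : (o3 2) ^ 1 * K2 ^ 16 + ((r1 2) ^ 1 * K1 ^ 16 + ((r0 2) ^ 1 * A ^ 16 + ((k 1) ^ 4 * (o3 2) ^ 2 + ((o1
      1) ^ 4 * (o3 2) ^ 2 + ((k 2) ^ 2 * (o1 1) ^ 4 + ((o1 1) ^ 4 * (o1 2) ^ 2 + ((o1 2) ^ 2 * (o3 1) ^ 4 + ((o1 2) ^
      2 * (r1 1) ^ 4 + ((o1 2) ^ 2 * (r2 1) ^ 4 + ((k 2) ^ 2 * (r3 1) ^ 4 + ((o1 2) ^ 2 * (r3 1) ^ 4 + ((o1 2) ^ 2 *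
      (r0 1) ^ 4 + ((o3 1) ^ 8 * K1 ^ 8 + ((r2 1) ^ 8 * K2 ^ 8 + ((r0 1) ^ 8 * B ^ 8 + ((k 0) ^ 2 * (o1 0) ^ 4 + ((k
      0) ^ 2 * (r3 0) ^ 4 + ((o1 0) ^ 2 * (o1 0) ^ 4 + ((o1 0) ^ 2 * (o3 0) ^ 4 + ((o1 0) ^ 2 * (r1 0) ^ 4 + ((o1 0) ^
      2 * (r2 0) ^ 4 + ((o1 0) ^ 2 * (r3 0) ^ 4 + ((o1 0) ^ 2 * (r0 0) ^ 4 + ((k 0) ^ 4 * (o3 0) ^ 2 + ((o1 0) ^ 4 *
      (o3 0) ^ 2 + 0))))))))))))))))))))))))) = 0 := sa_eq h hs hSA false true (by decide) sa_mp_107
  have Esb_pm_216 : (o3 0) ^ 2 * A2 ^ 32 + ((o1 2) ^ 1 * (r2 0) ^ 8 + ((o1 0) ^ 8 * (r3 2) ^ 1 + 0)) = 0 := sb_eq h hs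
      hSB true false (by decide) sb_pm_216
  have Esb_pm_213 : (o1 0) ^ 2 * A ^ 32 + ((o1 0) ^ 2 * B ^ 32 + ((r3 1) ^ 16 * B ^ 8 + ((k 2) ^ 1 * (o3 0) ^ 8 + ((o1
      2) ^ 1 * (r2 0) ^ 8 + 0)))) = 0 := sb_eq h hs hSB true false (by decide) sb_pm_213
  have Esb_pm_220 : (o1 1) ^ 16 * B ^ 8 + ((o3 2) ^ 1 * (r1 0) ^ 8 + ((o3 0) ^ 8 * (r2 2) ^ 1 + ((o1 1) ^ 4 * (o3 2) ^ 4
      + ((o1 2) ^ 4 * (o3 1) ^ 4 + 0)))) = 0 := sb_eq h hs hSB true false (by decide) sb_pm_220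
  have Esb_pm_13 : (o1 0) ^ 2 * A ^ 32 + ((o1 1) ^ 4 * (r1 2) ^ 4 + ((o3 1) ^ 4 * (r3 2) ^ 4 + ((o1 2) ^ 4 * (r1 1) ^ 4
      + ((o3 2) ^ 4 * (r3 1) ^ 4 + 0)))) = 0 := sb_eq h hs hSB true false (by decide) sb_pm_13
  have Esb_mm_95 : (r3 1) ^ 4 * A ^ 32 + ((k 2) ^ 1 * (o3 1) ^ 16 + ((o1 2) ^ 1 * (o3 1) ^ 16 + ((k 1) ^ 16 * (o3 2) ^ 1
      + ((o1 0) ^ 8 * K2 ^ 8 + ((r3 0) ^ 8 * B ^ 8 + ((o1 2) ^ 4 * (o3 0) ^ 2 + 0)))))) = 0 := sb_eq h hs hSB false
      false (by decide) sb_mm_95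
  -- the vectors are not zero
  have G0 : ¬ (k 0 = 0 ∧ o1 0 = 0 ∧ o3 0 = 0 ∧ r1 0 = 0 ∧ r2 0 = 0 ∧ r3 0 = 0 ∧ r0 0 = 0) := by
    rintro ⟨a1, a2, a3, a4, a5, a6, a7⟩
    refine hne true true true ?_
    rw [e1, a1, a2, a3, a4, a5, a6, a7, vR_zero, hF0]
    unfold T
    rw [map_zero, iz_zero]
  have G2 : ¬ (k 2 = 0 ∧ o1 2 = 0 ∧ o3 2 = 0 ∧ r1 2 = 0 ∧ r2 2 = 0 ∧ r3 2 = 0 ∧ r0 2 = 0) := by
    rintro ⟨a1, a2, a3, a4, a5, a6, a7⟩
    refine hne false true true ?_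
    rw [e3, a1, a2, a3, a4, a5, a6, a7, vR_zero]
  have G3 : ¬ (K1 = 0 ∧ K2 = 0 ∧ A = 0 ∧ A2 = 0 ∧ B = 0) := by
    rintro ⟨a1, a2, a3, a4, a5⟩
    refine hne false false true ?_
    rw [e4, a1, a2, a3, a4, a5, vN_zero, hF0, hF0, hF0]
  clear e1 e2 e3 e4 hne hT hSS hSA hSB hs
  -- the case analysis
  have z1 : o1 1 = 0 := by simpa using Esa_pp_81
  have z0 : o1 0 = 0 := by simpa [z1] using Esa_pm_120
  have y1 : o3 1 = 0 := by
    by_contra hc
    have b : B = 0 := by simpa [hc] using Ess_pmpmmp_78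
    have y0 : o3 0 = 0 := by simpa [hc] using Ess_pppmpm_52
    have a : A = 0 := by simpa [hc, b] using Ess_pmpppm_85
    exact hc (by simpa [z0, z1, b, y0, a] using Esa_mm_204)
  have z2 : o1 2 = 0 := by
    by_contra hc
    have y0 : o3 0 = 0 := by simpa [hc] using Ess_pppmpp_92
    have a1 : r1 0 = 0 := by simpa [hc] using Ess_mmmpmm_137
    have a3 : r3 0 = 0 := by simpa [hc, z0] using Ess_mmmmpp_156
    have a2 : r2 0 = 0 := by simpa [hc, z0] using Ess_mmmpmm_143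
    have a0 : r0 0 = 0 := by simpa [hc, y0, a1, a2] using Ess_mmmmpp_157
    have ak : k 0 = 0 := by simpa [hc, y0, y1, z0, z1] using Esa_pp_84
    exact G0 ⟨ak, z0, y0, a1, a2, a3, a0⟩
  have y0 : o3 0 = 0 := by
    by_contra hc
    have a : A = 0 := by simpa [hc] using Ess_pppmmp_168
    have b : B = 0 := by simpa [hc] using Ess_pppppm_199
    have k2 : K2 = 0 := by simpa [hc] using Ess_mmmmmp_31
    have y2 : o3 2 = 0 := by simpa [hc] using Ess_ppppmm_68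
    have a12 : r1 2 = 0 := by simpa [hc, y2] using Ess_mmmmpp_154
    have a2 : A2 = 0 := by simpa [hc, z2, z0] using Esb_pm_216
    have a22 : r2 2 = 0 := by simpa [hc, z1, z2, y2, b] using Esb_pm_220
    have ak2 : k 2 = 0 := by simpa [hc, z0, z2, b] using Esb_pm_213
    by_cases h3 : r3 2 = 0
    · have a02 : r0 2 = 0 := by simpa [hc, h3, a22, z2] using Ess_mmmmpp_157
      exact G2 ⟨ak2, z2, y2, a12, a22, h3, a02⟩
    · have k1 : K1 = 0 := by simpa [h3, a2] using Ess_mppmmp_212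
      exact G3 ⟨k1, k2, a, a2, b⟩
  have y2 : o3 2 = 0 := by
    by_contra hc
    have a2 : A2 = 0 := by simpa [hc] using Ess_mppmmp_199
    have k0 : k 0 = 0 := by simpa [hc, z0] using Ess_mmmmpp_184
    have a : A = 0 := by simpa [hc] using Esa_pp_66
    have r31 : r3 1 = 0 := by simpa [hc, z0, z1, z2, y1] using Esb_pm_13
    have r10 : r1 0 = 0 := by simpa [hc, z1, z2, y0, y1] using Esb_pm_220
    have b : B = 0 := by simpa [hc, z1, z2, r10, a] using Esa_mm_195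
    have r21 : r2 1 = 0 := by simpa [hc, y0, y1, b] using Esa_pm_165
    have k1 : K1 = 0 := by simpa [hc, z0, z1, y0, a, b, r31] using Esa_mp_95
    have kk1 : k 1 = 0 := by simpa [hc, z0, z2, y1, y0, a, b, r31] using Esb_mm_95
    have k2 : K2 = 0 := by simpa [hc, z0, z1, z2, y0, y1, k0, kk1, k1, a, b, r31, r21, r10] using Esa_mp_107
    exact G3 ⟨k1, k2, a, a2, b⟩
  intro i hi
  have hi' : i = 0 ∨ i = 1 ∨ i = 2 := by omega
  rcases hi' with rfl | rfl | rfl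
  · exact ⟨z0, y0⟩
  · exact ⟨z1, y1⟩
  · exact ⟨z2, y2⟩

end Cfsg.Agent.H834.L16
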