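import Cfsg.Agent.H942.L16.Calc
import Cfsg.Agent.H955.L16.Stmt

/-!
# S5916: the elimination `ElimR0` for families of type R with one index (helper834, with the calculator of helper942)
-/

set_option autoImplicit false
set_option maxRecDepth 100000

namespace Cfsg.Agent.H834.L16

open Cfsg Cfsg.Lie
open Cfsg.Agent.H939.L64 (KK LK brK)
open Cfsg.Agent.H413.L16 (er nr rk8)
open Cfsg.Agent.H939.L16
open Cfsg.Agent.H955.L16
open Cfsg.Agent.H942.L16 (sv pv mv mp mm mv_mp mv_mm mv_prime pv_cons pv_nil sv_cons sv_nil okI okB okT frS brS TS cR sumP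
  pv_sumP pv_cR sv_frS sv_brS sv_TS)

namespace R0

/-- the variables -/
noncomputable def xs (k o1 o3 r1 r2 r3 r0 : KK) (p : ℕ) : KK :=
  if p = 2 then k else if p = 3 then o1 else if p = 5 then o3 else if p = 7 then r1 else if p = 11 then r2 else
  if p = 13 then r3 else r0

/-- the family -/
def L : Bool → List (ℕ × List ℕ)
  | true => [(127, [2]), (128, [1]), (131, [2]), (136, [4]), (137, [10]), (143, [12]), (147, [6]), (148, [16]), (163, [4])]
  | false => [(77, [4]), (92, [2]), (96, [4]), (97, [2, 4, 10]), (103, [2, 12]), (108, [4, 6]),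
      (109, [2, 4, 6, 10, 12, 16]), (115, [2]), (116, [1, 2])]

def Z (a b : Bool) : List (ℕ × List ℕ) := brS (L a) (frS (frS (L b)))

theorem ok1 : ∀ a, okI (L a) = true := by decide +kernel

theorem ok2 : ∀ a, okI (frS (L a)) = true := by decide +kernel

theorem ok3 : ∀ a b, okB (L a) (frS (frS (L b))) = true := by decide +kernel

theorem ok4 : ∀ a b, okI (Z a b) = true := by decide +kernel

theorem inv135 : sumP [cR 135 (Z true true) (Z false false), cR 135 (Z true false) (Z false true)] = [59048, 9765624] := by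
  decide +kernel

theorem tv : TS (L true) = L false := by decide +kernel

theorem okv : okT (L true) = true := by decide +kernel

end R0

open R0

/-- **the elimination of type R, `(0)`** -/
theorem elimR0 {Fp : LK → LK} {ta : LK →ₗ[KK] LK} (O : Ops Fp ta) : ElimR0 Fp ta := by
  intro s k o1 o3 r1 r2 r3 r0 hR hv hT _ hI
  obtain ⟨x, hx⟩ : ∃ x, x = xs k o1 o3 r1 r2 r3 r0 := ⟨_, rfl⟩
  have m1 : mv x 1 = k := by subst hx; exact mv_prime _ (p := 2) (by norm_num)
  have m2 : mv x 2 = o1 := by subst hx; exact mv_prime _ (p := 3) (by norm_num)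
  have m4 : mv x 4 = o3 := by subst hx; exact mv_prime _ (p := 5) (by norm_num)
  have m6 : mv x 6 = r1 := by subst hx; exact mv_prime _ (p := 7) (by norm_num)
  have m10 : mv x 10 = r2 := by subst hx; exact mv_prime _ (p := 11) (by norm_num)
  have m12 : mv x 12 = r3 := by subst hx; exact mv_prime _ (p := 13) (by norm_num)
  have m16 : mv x 16 = r0 := by subst hx; exact mv_prime _ (p := 17) (by norm_num)
  clear hx
  have hv' : s true = sv x (L true) := by
    rw [hv]
    unfold L vR
    simp only [sv_cons, sv_nil, pv_cons, pv_nil, m1, m2, m4, m6, m10, m12, m16, add_zero, smul_add]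
    abel
  have hs : ∀ a, s a = sv x (L a) := by
    intro a
    cases a
    · rw [hT, hv']
      unfold T
      rw [sv_TS O x _ okv, tv]
    · exact hv'
  have hz : ∀ a b, brK (s a) (Fp (Fp (s b))) = sv x (Z a b) := by
    intro a b
    rw [hs b, sv_frS O x _ (ok1 b), sv_frS O x _ (ok2 b), hs a, sv_brS x _ _ (ok3 a b)]
    rfl
  have e135 : pv x [59048, 9765624] = 0 := by
    have h := hI
    unfold INV1 at h
    simp only [hz] at h
    have h1 := congrFun h (Sum.inr ⟨135, by rw [nr]; norm_num⟩)
    simp only [Pi.add_apply, pv_cR x _ _ _ (ok4 _ _) (ok4 _ _)] at h1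
    rw [← inv135, pv_sumP]
    simp only [List.map_cons, List.map_nil, List.sum_cons, List.sum_nil, add_zero]
    exact h1
  have p1 : mv x 59048 = o1 ^ 10 := by
    rw [show (59048 : ℕ) = mp 2 10 by decide +kernel, mv_mp, m2]
  have p2 : mv x 9765624 = o3 ^ 10 := by
    rw [show (9765624 : ℕ) = mp 4 10 by decide +kernel, mv_mp, m4]
  simp only [pv_cons, pv_nil, add_zero, p1, p2] at e135
  obtain ⟨-, h13, -⟩ := hR
  rcases mul_eq_zero.1 h13 with h | h
  · refine ⟨h, ?_⟩
    rw [h] at e135
    simpa using e135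
  · refine ⟨?_, h⟩
    rw [h] at e135
    simpa using e135

end Cfsg.Agent.H834.L16
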